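import Cfsg.Agent.H484.E8T.Cnt
import Cfsg.Agent.H939.L64.DefT

/-!
# S5915, piece K1: the elements of order 65 (helper484)
-/

set_option autoImplicit false
set_option maxRecDepth 100000

namespace Cfsg.Agent.H484.E8T

open Cfsg Cfsg.Lie Cfsg.Agent.H944.Kac Cfsg.Agent.H944.RootVals Cfsg.Agent.H942.E8Tab Cfsg.Agent.H939.L64
open Cfsg.Agent.H943.E8Tab

theorem unit_of {a b : ZMod 65} (h : a * b = 1) : ∃ u : (ZMod 65)ˣ, (u : ZMod 65) = a :=
  ⟨⟨a, b, h, by rw [mul_comm, h]⟩, rfl⟩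

/-- **K1**: the elements of order 65 -/
theorem K1 (P : (Fin 8 → ZMod 65) → Prop) (hP : ∀ v j, P v → P (srefl chevE8 8 j v)) {v : Fin 8 → ZMod 65} (hv : P v)
    (h2 : (ms chevE8 8 v).map (fun a => 2 * a) = ms chevE8 8 v) (h5 : ∃ i, 5 * v i ≠ 0) (h13 : ∃ i, 13 * v i ≠ 0) :
    ∃ u : (ZMod 65)ˣ, P (fun i => u * Y1 i) ∨ P (fun i => u * Y5 i) := by
  obtain ⟨Y, hY, h⟩ := class65' P hP hv h2 h5 h13
  have key1 : ∀ a b : ZMod 65, a * b = 1 → (fun i => a * Y1 i) = vecOf 65 Y →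
      ∃ u : (ZMod 65)ˣ, P (fun i => u * Y1 i) ∨ P (fun i => u * Y5 i) := by
    intro a b hab e
    obtain ⟨u, hu⟩ := unit_of hab
    refine ⟨u, Or.inl ?_⟩
    rw [hu, e]
    exact h
  have key5 : ∀ a b : ZMod 65, a * b = 1 → (fun i => a * Y5 i) = vecOf 65 Y →
      ∃ u : (ZMod 65)ˣ, P (fun i => u * Y1 i) ∨ P (fun i => u * Y5 i) := by
    intro a b hab e
    obtain ⟨u, hu⟩ := unit_of hab
    refine ⟨u, Or.inr ?_⟩
    rw [hu, e]
    exact h
  simp only [Y65, List.mem_cons, List.not_mem_nil, or_false] at hY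
  rcases hY with rfl | rfl | rfl | rfl | rfl | rfl
  · exact key1 1 1 (by decide +kernel) (by decide +kernel)
  · exact key1 3 22 (by decide +kernel) (by decide +kernel)
  · exact key1 7 28 (by decide +kernel) (by decide +kernel)
  · exact key1 11 6 (by decide +kernel) (by decide +kernel)
  · exact key5 1 1 (by decide +kernel) (by decide +kernel)
  · exact key5 3 22 (by decide +kernel) (by decide +kernel)

end Cfsg.Agent.H484.E8T
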