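import Mathlib
import Cfsg.Agent.H943.E8Alc
import Cfsg.Agent.H943.AlcTab

/-!
# Two stage classification of the vectors modulo `N₁ * N₂` for `E8` (helper484)

The version of helper943's `E91a` for any two coprime moduli and for any property `P` invariant under the simple
reflections.

* `SInv P` : invariance under the simple reflections; `InvQ q v` : root values invariant under the multiplication by `q`;
* `stageA` : the first component can be moved into the alcove modulo `N₁`;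
* `stageB` : the second component can be reduced by the stabilizer;
* `eq_crt`, `invB_crt`, `lin_crt` : the tests are passed;
* `move` : Weyl group elements, given by dominance.
-/

set_option autoImplicit false
set_option maxRecDepth 100000

namespace Cfsg.Agent.H484.E8T

open Cfsg.Agent.ChevalleyStructure.CoxeterGeom Cfsg.Agent.Tits.Roots
  Cfsg.Agent.Nodes.RGDChev
open Cfsg.Lie Cfsg.Agent.ChevalleyStructure Cfsg.Agent.ChevalleyStructure.Elts
  Cfsg.Agent.ChevalleyStructure.RootVec Cfsg.Agent.ChevalleyStructure.RootVecTab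
  Cfsg.Agent.ChevalleyStructure.NPerm Cfsg.Agent.ChevalleyStructure.CoxeterGeomTypes
open Cfsg.Agent.H944.RootVals Cfsg.Agent.H944.Kac Cfsg.Agent.H944.Tab
open Cfsg.Agent.H943.E8Tab
open Cfsg.Agent.H943.Alc (A8 A8L sv dot toF srL bv Q exists_min le_of_min perm_of_list)

/-- invariance under the simple reflections -/
def SInv {N : ℕ} (P : (Fin 8 → ZMod N) → Prop) : Prop := ∀ v j, P v → P (srefl chevE8 8 j v)

/-- root values invariant under the multiplication by `q` -/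
def InvQ {N : ℕ} (q : ℕ) (v : Fin 8 → ZMod N) : Prop :=
  ms chevE8 8 v = (ms chevE8 8 v).map (fun a => ((q : ℕ) : ZMod N) * a)

theorem sInv_invQ {N : ℕ} (q : ℕ) : SInv (N := N) (InvQ q) := by
  intro v j h
  unfold InvQ
  rw [ms_srefl e8T]
  exact h

theorem SInv.and {N : ℕ} {P R : (Fin 8 → ZMod N) → Prop} (hP : SInv P) (hR : SInv R) : SInv fun v => P v ∧ R v :=
  fun v j h => ⟨hP v j h.1, hR v j h.2⟩

theorem cartan_A8 : ∀ i j : Fin 8, cartanOf chevE8 8 j i = A8 i j := by decide +kernel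

theorem srefl_int {N : ℕ} (j : Fin 8) (t : Fin 8 → ℤ) :
    srefl chevE8 8 j (fun i => ((t i : ℤ) : ZMod N)) = fun i => ((sv A8 j t i : ℤ) : ZMod N) := by
  funext i
  unfold srefl sv
  rw [cartan_A8]
  push_cast
  rfl

/-! ### the two components -/

section

variable {N₁ N₂ : ℕ}

/-- reduction modulo `N₁` -/
abbrev q₁ (N₁ N₂ : ℕ) : ZMod (N₁ * N₂) →+* ZMod N₁ := ZMod.castHom (Dvd.intro _ rfl) (ZMod N₁)

/-- reduction modulo `N₂` -/
abbrev q₂ (N₁ N₂ : ℕ) : ZMod (N₁ * N₂) →+* ZMod N₂ := ZMod.castHom (Dvd.intro_left _ rfl) (ZMod N₂)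

/-- nonzero components are preserved -/
theorem sInv_ne {N M : ℕ} (f : ZMod N →+* ZMod M) : SInv (N := N) fun v => (fun i => f (v i)) ≠ 0 := by
  intro v j h h0
  rw [← srefl_map] at h0
  exact h (srefl_eq_zero e8T h0)

/-- **The first component in the alcove.** -/
theorem stageA (hN₁ : 0 < N₁) (P : (Fin 8 → ZMod (N₁ * N₂)) → Prop) (hP : SInv P) {v : Fin 8 → ZMod (N₁ * N₂)}
    (h0 : P v) : ∃ (Y : List ℕ) (v' : Fin 8 → ZMod (N₁ * N₂)), Y.length = 8 ∧ dotN th8 Y ≤ N₁ ∧ P v' ∧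
      (fun i => q₁ N₁ N₂ (v' i)) = vecOf N₁ Y := by
  obtain ⟨Y, h1, h2, v', h3, h4⟩ := alcove8 hN₁ (fun w => ∃ v' : Fin 8 → ZMod (N₁ * N₂), P v' ∧
    (fun i => q₁ N₁ N₂ (v' i)) = w) (fun w j ⟨v', h3, h4⟩ => ⟨srefl chevE8 8 j v', hP v' j h3, by
      rw [← srefl_map, h4]⟩) ⟨v, h0, rfl⟩
  exact ⟨Y, v', h1, h2, h3, h4⟩

/-- **minimal second components** -/
theorem stageB (hN₂ : 0 < N₂) (Y : List ℕ) (J : Finset (Fin 8)) (RJ : List (List ℤ)) (r : Fin 8 → ℕ)
    (hJY : ∀ j ∈ J, Y.getD (j : ℕ) 0 = 0) (hlen : ∀ a ∈ RJ, a.length = 8)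
    (h1 : ∀ j ∈ J, (RJ.map (srL (j : Fin 8))).Perm RJ)
    (h2 : ∀ j ∈ J, (Pi.single j 1 : Fin 8 → ℤ) ∈ RJ.map toF) (h3 : ∀ a ∈ RJ.map toF, ∀ i, i ∉ J → a i = 0)
    (h4 : ∀ j ∈ J, ∑ i, (r i : ℤ) * A8 i j = 2) (h5 : ∀ i, i ∉ J → r i = 0)
    (P : (Fin 8 → ZMod (N₁ * N₂)) → Prop) (hP : SInv P)
    {v : Fin 8 → ZMod (N₁ * N₂)} (hv : (fun i => q₁ N₁ N₂ (v i)) = vecOf N₁ Y) (h0 : P v) :
    ∃ u : Fin 8 → ℕ, (∀ i, i ∉ J → u i < N₂) ∧ (∃ v' : Fin 8 → ZMod (N₁ * N₂), (fun i => q₁ N₁ N₂ (v' i)) = vecOf N₁ Y ∧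
      (fun i => q₂ N₁ N₂ (v' i)) = (fun i => ((u i : ℕ) : ZMod N₂)) ∧ P v') ∧
      ∀ d : Fin 8 → ℤ, 2 * dot (bv (RJ.map toF) d) (fun i => (u i : ℤ)) ≤ N₂ * Q (RJ.map toF) d := by
  have : NeZero N₂ := ⟨hN₂.ne'⟩
  let T : (Fin 8 → ℤ) → Prop := fun t => ∃ v' : Fin 8 → ZMod (N₁ * N₂), (fun i => q₁ N₁ N₂ (v' i)) = vecOf N₁ Y ∧
      (fun i => q₂ N₁ N₂ (v' i)) = (fun i => ((t i : ℤ) : ZMod N₂)) ∧ P v'
  have hne : ∃ t, T t := by
    refine ⟨fun i => ((q₂ N₁ N₂ (v i)).val : ℤ), v, hv, ?_, h0⟩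
    funext i
    push_cast
    exact (ZMod.natCast_zmod_val _).symm
  have hs : ∀ j ∈ J, ∀ t, T t → T (sv A8 j t) := by
    rintro j hj t ⟨v', e1, e2, e3⟩
    refine ⟨srefl chevE8 8 j v', ?_, ?_, hP _ _ e3⟩
    · rw [← srefl_map, e1]
      funext i
      have hz : vecOf N₁ Y j = 0 := by
        unfold vecOf
        rw [hJY j hj, Nat.cast_zero]
      unfold srefl
      rw [hz, mul_zero, sub_zero]
    · rw [← srefl_map, e2, srefl_int]
  have ht : ∀ t d, T t → T (t + (N₂ : ℤ) • d) := by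
    rintro t d ⟨v', e1, e2, e3⟩
    refine ⟨v', e1, ?_, e3⟩
    rw [e2]
    funext i
    rw [Pi.add_apply, Pi.smul_apply, smul_eq_mul]
    push_cast
    rw [ZMod.natCast_self, zero_mul, add_zero]
  obtain ⟨t, ⟨v', e1, e2, e3⟩, hJ, hnJ, hmin⟩ := exists_min A8 J (RJ.map toF) r (N := (N₂ : ℤ)) (by exact_mod_cast hN₂)
    (fun j hj => perm_of_list hlen j (h1 j hj)) h2 h3 h4 h5 T hne hs ht
  have hpos : ∀ i, 0 ≤ t i := by
    intro i
    by_cases hi : i ∈ J
    · exact hJ i hi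
    · exact (hnJ i hi).1
  have htn : ∀ i, (((t i).toNat : ℕ) : ℤ) = t i := fun i => Int.toNat_of_nonneg (hpos i)
  refine ⟨fun i => (t i).toNat, fun i hi => ?_, ⟨v', e1, ?_, e3⟩, fun d => ?_⟩
  · have h6 := (hnJ i hi).2
    have h7 := htn i
    have h8 : (((t i).toNat : ℕ) : ℤ) < N₂ := by rw [h7]; exact h6
    exact_mod_cast h8
  · rw [e2]
    funext i
    conv_lhs => rw [← htn i]
    push_cast
    rfl
  · have h6 := le_of_min (by exact_mod_cast hN₂) hmin d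
    have h7 : (fun i => (((t i).toNat : ℕ) : ℤ)) = t := funext htn
    rw [h7]
    exact h6

/-- the vector from its two components -/
theorem eq_crt (hco : N₁.Coprime N₂) {e₁ e₂ : ℕ} (h11 : ((e₁ : ℕ) : ZMod N₁) = 1) (h12 : ((e₁ : ℕ) : ZMod N₂) = 0)
    (h21 : ((e₂ : ℕ) : ZMod N₁) = 0) (h22 : ((e₂ : ℕ) : ZMod N₂) = 1)
    {v : Fin 8 → ZMod (N₁ * N₂)} {Y U : List ℕ} (hYl : Y.length = U.length)
    (hY : (fun i => q₁ N₁ N₂ (v i)) = vecOf N₁ Y) (hU : (fun i => q₂ N₁ N₂ (v i)) = vecOf N₂ U) :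
    v = vecOf (N₁ * N₂) (crt e₁ e₂ (N₁ * N₂) Y U) := by
  funext i
  unfold vecOf
  rw [crt_getD e₁ e₂ (N₁ * N₂) Y U hYl]
  rw [ZMod.natCast_mod]
  apply (ZMod.chineseRemainder hco).injective
  have h5 : ∀ z : ZMod (N₁ * N₂), ZMod.chineseRemainder hco z = (q₁ N₁ N₂ z, q₂ N₁ N₂ z) := by
    intro z
    apply Prod.ext
    · exact RingHom.congr_fun (Subsingleton.elim ((RingHom.fst _ _).comp (ZMod.chineseRemainder hco).toRingHom)
        (q₁ N₁ N₂)) z
    · exact RingHom.congr_fun (Subsingleton.elim ((RingHom.snd _ _).comp (ZMod.chineseRemainder hco).toRingHom)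
        (q₂ N₁ N₂)) z
  rw [h5, h5]
  have hy := congrFun hY i
  have hu := congrFun hU i
  apply Prod.ext
  · show q₁ N₁ N₂ _ = q₁ N₁ N₂ _
    rw [map_natCast, Nat.cast_add, Nat.cast_mul, Nat.cast_mul, h11, h21, zero_mul, add_zero, one_mul]
    exact hy
  · show q₂ N₁ N₂ _ = q₂ N₁ N₂ _
    rw [map_natCast, Nat.cast_add, Nat.cast_mul, Nat.cast_mul, h12, h22, zero_mul, zero_add, one_mul]
    exact hu

/-- the linear conditions are satisfied -/
theorem lin_crt (hN₁ : 0 < N₁) {q : ℕ} {v : Fin 8 → ZMod (N₁ * N₂)} (hq : InvQ q v) {Y U : List ℕ}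
    (hY : (fun i => q₁ N₁ N₂ (v i)) = vecOf N₁ Y) (hU : (fun i => q₂ N₁ N₂ (v i)) = vecOf N₂ U)
    {B : List (ℕ × List ℕ)} (hB : chkB N₁ N₂ q 8 R8 Y B = true) :
    (B.all fun cb => Nat.beq (dotN cb.2 U % N₂) 0) = true := by
  rw [List.all_eq_true]
  intro cb hcb
  rw [Nat.beq_eq]
  have hlen : cb.2.length ≤ 8 := by
    rw [chkB, List.all_eq_true] at hB
    have hB1 := hB cb hcb
    rw [Bool.and_eq_true, Bool.and_eq_true, decide_eq_true_iff, decide_eq_true_iff] at hB1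
    exact hB1.1.2
  have h2 := lin_of (N₁ := N₁) (N₂ := N₂) hN₁ tab8 len8 hq (fun i => congrFun hY i) hB cb hcb
  refine Nat.mod_eq_zero_of_dvd ((ZMod.natCast_eq_zero_iff _ _).1 ?_)
  rw [dotN_eq 8 _ _ hlen, ← h2]
  push_cast
  refine Finset.sum_congr rfl fun i _ => ?_
  congr 1
  exact (congrFun hU i).symm

end

/-! ### Weyl group elements by dominance -/

/-- the simple reflection on a list -/
def svL (j : ℕ) (t : List ℤ) : List ℤ := List.zipWith (fun a x => x - a * t.getD j 0) (A8L.getD j []) t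

theorem svL_length {j : Fin 8} {t : List ℤ} (ht : t.length = 8) : (svL j t).length = 8 := by
  unfold svL
  rw [List.length_zipWith, H943.Alc.len_A8L, ht]
  rfl

theorem svL_getD {j : Fin 8} {t : List ℤ} (ht : t.length = 8) (i : Fin 8) :
    (svL j t).getD i 0 = sv A8 j (fun i => t.getD i 0) i := by
  have h1 : (i : ℕ) < (A8L.getD j []).length := by rw [H943.Alc.len_A8L]; exact i.2
  have h2 : (i : ℕ) < t.length := by rw [ht]; exact i.2
  unfold svL sv
  rw [List.getD_eq_getElem _ _ (by rw [List.length_zipWith, H943.Alc.len_A8L, ht]; exact i.2), List.getElem_zipWith]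
  have h3 : (A8L.getD j [])[(i : ℕ)] = A8 i j := by
    rw [H943.Alc.A8_symm]
    unfold A8
    rw [List.getD_eq_getElem (A8L.getD j []) 0 h1]
  rw [h3]
  show _ - _ = t.getD (i : ℕ) 0 - _
  rw [List.getD_eq_getElem t 0 h2]

/-- a list of integers as a vector modulo `N` -/
def vecZ (N : ℕ) (t : List ℤ) : Fin 8 → ZMod N := fun i => ((t.getD i 0 : ℤ) : ZMod N)

/-- the chain of reflections given by the word `w` leads from `t` to `s` -/
def chain : List ℕ → List ℤ → List ℤ → Bool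
  | [], t, s => t == s
  | j :: w, t, s => decide (j < 8) && chain w (svL j t) s

theorem chain_spec {N : ℕ} {P : (Fin 8 → ZMod N) → Prop} (hP : SInv P) : ∀ (w : List ℕ) (t s : List ℤ),
    t.length = 8 → chain w t s = true → P (vecZ N t) → P (vecZ N s)
  | [], t, s, _, h, h0 => by
    rw [chain, beq_iff_eq] at h
    rw [← h]
    exact h0
  | j :: w, t, s, ht, h, h0 => by
    rw [chain, Bool.and_eq_true, decide_eq_true_iff] at h
    refine chain_spec hP w (svL j t) s (svL_length (j := ⟨j, h.1⟩) ht) h.2 ?_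
    have h1 := hP _ ⟨j, h.1⟩ h0
    unfold vecZ at h1
    rw [srefl_int (N := N) ⟨j, h.1⟩ (fun i => t.getD i 0)] at h1
    have h2 : vecZ N (svL j t) = fun i => ((sv A8 ⟨j, h.1⟩ (fun i : Fin 8 => t.getD i 0) i : ℤ) : ZMod N) := by
      funext i
      unfold vecZ
      rw [← svL_getD (j := ⟨j, h.1⟩) ht i]
    rw [h2]
    exact h1

/-- **Moving a vector by a Weyl group element.** -/
theorem move {N : ℕ} {P : (Fin 8 → ZMod N) → Prop} (hP : SInv P) (w : List ℕ) (V : List ℕ) (t s : List ℤ)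
    (ht : t.length = 8) (hV : ((List.range 8).all fun i => decide ((t.getD i 0) % (N : ℤ) = ((V.getD i 0 : ℕ) : ℤ) % (N : ℤ))) = true)
    (h : chain w t s = true) (h0 : P (vecOf N V)) : P (vecZ N s) := by
  refine chain_spec hP w t s ht h ?_
  have h1 : vecZ N t = vecOf N V := by
    funext i
    unfold vecZ vecOf
    rw [List.all_eq_true] at hV
    have h2 := hV i (by rw [List.mem_range]; exact i.2)
    rw [decide_eq_true_iff] at h2
    rw [(ZMod.intCast_eq_intCast_iff' _ _ N).2 h2, Int.cast_natCast]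
  rw [h1]
  exact h0

end Cfsg.Agent.H484.E8T
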