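import Mathlib
import Cfsg.Agent.H484.E8T.Stage

/-!
# The vectors modulo `13 * 5` for `E8(2)` (helper484, for S5915)

`class65` : `v` modulo 65 with both components different from zero and root values invariant under the multiplication
by 2: up to the Weyl group `v = u (1,0,0,1,1,2,4,8)`, `u = 1, 3, 7, 11`, or `v = u (1,5,3,1,1,2,3,3)`, `u = 1, 3`.
-/

set_option autoImplicit false
set_option maxRecDepth 100000
set_option maxHeartbeats 1000000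

namespace Cfsg.Agent.H484.E8T

open Cfsg.Agent.ChevalleyStructure.CoxeterGeom Cfsg.Agent.Tits.Roots
  Cfsg.Agent.Nodes.RGDChev
open Cfsg.Lie Cfsg.Agent.ChevalleyStructure Cfsg.Agent.ChevalleyStructure.Elts
  Cfsg.Agent.ChevalleyStructure.RootVec Cfsg.Agent.ChevalleyStructure.RootVecTab
  Cfsg.Agent.ChevalleyStructure.NPerm Cfsg.Agent.ChevalleyStructure.CoxeterGeomTypes
open Cfsg.Agent.H944.RootVals Cfsg.Agent.H944.Kac Cfsg.Agent.H944.Tab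
open Cfsg.Agent.H943.E8Tab
open Cfsg.Agent.H943.Alc (A8 A8L sv dot toF srL bv Q)

/-- the constraint from the minimality -/
theorem con {N : ℕ} {RJ : List (Fin 8 → ℤ)} {u : Fin 8 → ℕ} {d b : Fin 8 → ℤ} {c : ℤ} (hb : bv RJ d = b)
    (hc : Q RJ d = c) (h : 2 * dot (bv RJ d) (fun i => (u i : ℤ)) ≤ N * Q RJ d) :
    2 * (b 0 * u 0 + b 1 * u 1 + b 2 * u 2 + b 3 * u 3 + b 4 * u 4 + b 5 * u 5 + b 6 * u 6 + b 7 * u 7) ≤ N * c := by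
  rw [hb, hc] at h
  unfold dot at h
  rw [Fin.sum_univ_eight] at h
  exact h

theorem vecOf_list {N : ℕ} (u : Fin 8 → ℕ) :
    (fun i => ((u i : ℕ) : ZMod N)) = vecOf N [u 0, u 1, u 2, u 3, u 4, u 5, u 6, u 7] := by
  funext i
  fin_cases i <;> rfl

theorem eq_mod {m : ℕ} {a b : ℕ} (ha : a < m) (h : (a : ZMod m) = (b : ZMod m)) : a = b % m := by
  have h1 := (ZMod.natCast_eq_natCast_iff' _ _ m).1 h
  rwa [Nat.mod_eq_of_lt ha] at h1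

theorem zero_of_mod {m a : ℕ} (h : a % m = 0) : ((a : ℕ) : ZMod m) = 0 :=
  (ZMod.natCast_eq_zero_iff _ _).2 (Nat.dvd_of_mod_eq_zero h)

namespace O65

/-- first alcove point modulo 13 -/
def yA : List ℕ := [1, 0, 0, 0, 0, 1, 1, 1]

/-- second alcove point modulo 13 -/
def yB : List ℕ := [1, 1, 0, 0, 1, 0, 0, 1]

theorem check13 : allAlc th8 13 (fun y => bif invB 13 2 R8 y then
    (y == yA || y == yB || y == [0, 0, 0, 0, 0, 0, 0, 0]) else true) = true := by decide +kernel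

/-- roots of `D4` -/
def RZA : List (List ℤ) :=
  H943.Alc.R8.filter fun a => (a.getD 0 0 == 0) && (a.getD 5 0 == 0) && (a.getD 6 0 == 0) && (a.getD 7 0 == 0)

/-- roots of `A2A2` -/
def RZB : List (List ℤ) :=
  H943.Alc.R8.filter fun a => (a.getD 0 0 == 0) && (a.getD 1 0 == 0) && (a.getD 4 0 == 0) && (a.getD 7 0 == 0)

/-- linear conditions -/
def BA : List (ℕ × List ℕ) :=
  [(1, [3, 0, 4, 0, 1, 2, 4, 1]), (2, [0, 3, 3, 1, 1, 1, 4, 2]), (3, [4, 0, 2, 0, 3, 1, 4, 4]),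
    (5, [2, 1, 2, 2, 1, 0, 0, 2])]

/-- linear conditions -/
def BB : List (ℕ × List ℕ) :=
  [(1, [2, 0, 2, 2, 2, 3, 4, 0]), (2, [1, 1, 0, 4, 2, 4, 1, 3]), (3, [2, 4, 4, 1, 4, 0, 1, 2]),
    (5, [4, 1, 4, 4, 3, 1, 4, 2])]

theorem chkBA : chkB 13 5 2 8 R8 yA BA = true := by decide +kernel

theorem chkBB : chkB 13 5 2 8 R8 yB BB = true := by decide +kernel

/-- the vectors in the second case: the vector, an integral vector in the same class, a word of the Weyl group and the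
dominant vector obtained -/
def D65 : List (List ℕ × List ℤ × List ℕ × List ℤ) :=
  [
    ([53, 1, 0, 26, 53, 52, 0, 1], [-12, 1, 0, 26, -12, -13, 0, 1], [0, 2, 4, 5, 4, 3, 1, 6, 5, 4, 3, 2, 0, 7, 6,
      5, 4, 3, 1, 2, 3, 4, 5, 6], [1, 0, 0, 1, 1, 2, 4, 8]),
    ([1, 27, 0, 52, 40, 0, 26, 1], [66, 352, 0, -143, -220, 0, 286, 66], [3, 2, 0, 4, 3, 1, 2, 0, 3, 2, 4, 3, 5, 4,
      3, 1, 2, 0, 3, 2, 4, 3, 1, 5, 4, 3, 6, 5, 4, 3, 1, 2, 0, 3, 2, 4, 3, 1, 5, 4, 3, 2, 7, 6, 5, 4, 3, 1, 2, 0,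
      3, 2, 4, 3, 1, 5, 4, 3, 2, 0, 6], [11, 0, 0, 11, 11, 22, 44, 88]),
    ([1, 53, 26, 0, 14, 0, 52, 27], [-259, -77, 91, 0, 14, 0, 182, -168], [0, 1, 2, 3, 1, 2, 4, 3, 1, 2, 0, 5, 4,
      3, 1, 2, 0, 3, 4, 5, 6, 5, 4, 3, 1, 2, 3, 4, 5, 7, 6, 5, 4, 3, 1, 2, 0, 3, 2, 4, 3, 1, 5, 4, 3, 2, 0, 6, 5,
      4, 3, 1, 2, 3, 4, 5, 6, 7, 6, 5, 4], [7, 0, 0, 7, 7, 14, 28, 56]),
    ([14, 14, 26, 26, 1, 26, 52, 40], [-51, 144, -39, -39, 66, -39, -78, 105], [0, 2, 0, 3, 2, 0, 4, 3, 5, 4, 3, 1,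
      2, 3, 6, 5, 4, 3, 1, 2, 0, 3, 2, 4, 3, 1, 5, 4, 3, 2, 0, 6, 7, 6, 5, 4, 3, 1, 2, 0, 3, 2, 4, 3, 5, 4, 6, 5],
      [3, 15, 9, 3, 3, 6, 9, 9]),
    ([14, 14, 26, 26, 14, 52, 26, 27], [-51, 144, -39, -39, -51, 117, -39, 27], [0, 2, 0, 3, 2, 0, 4, 3, 1, 2, 0,
      3, 2, 4, 5, 4, 3, 1, 2, 6, 5, 4, 3, 1, 2, 0, 3, 2, 4, 3, 7, 6, 5, 4, 3, 1, 2, 0, 3, 2, 4, 3, 5, 4, 6, 5], [3,
      15, 9, 3, 3, 6, 9, 9]),
    ([27, 40, 26, 52, 14, 26, 26, 14], [27, -25, 26, -13, 14, -39, 26, 14], [1, 3, 1, 2, 4, 3, 5, 4, 3, 1, 2, 0, 3,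
      2, 4, 3, 1, 5, 6, 5, 4, 3, 1, 2, 0, 3, 2, 4, 3, 5, 4, 7, 6, 5, 4, 3, 1, 2, 0, 3, 2, 4, 3, 1, 5, 6, 7], [1, 5,
      3, 1, 1, 2, 3, 3]),
    ([27, 1, 52, 0, 27, 26, 0, 53], [27, 66, -78, 0, 27, -39, 0, -12], [2, 0, 3, 1, 2, 4, 3, 1, 5, 4, 3, 1, 2, 0,
      3, 2, 4, 3, 6, 5, 4, 3, 1, 2, 0, 3, 2, 4, 3, 1, 5, 4, 3, 6, 5, 4, 7, 6, 5, 4, 3, 1, 2, 0, 3, 2, 4, 3, 1, 5,
      4, 3, 2, 0, 6, 5, 4, 3, 1, 2, 3, 4, 5, 6, 7, 6, 5, 4, 3, 1, 2, 0, 3, 2, 4, 3, 1, 5, 4, 3, 2, 0, 6, 5, 4, 3,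
      1, 2, 3, 4], [3, 0, 0, 3, 3, 6, 12, 24]),
    ([40, 27, 52, 26, 1, 26, 26, 14], [40, -38, -13, 26, 1, -39, 26, 14], [1, 2, 3, 2, 4, 3, 5, 4, 3, 1, 2, 0, 3,
      2, 4, 3, 1, 5, 6, 5, 4, 3, 1, 2, 0, 3, 2, 4, 3, 5, 4, 7, 6, 5, 4, 3, 1, 2, 0, 3, 2, 4, 3, 1, 5, 6, 7], [1, 5,
      3, 1, 1, 2, 3, 3])
  ]

/-- the result -/
def T65 : List (List ℤ) :=
  [[1, 0, 0, 1, 1, 2, 4, 8], [3, 0, 0, 3, 3, 6, 12, 24], [7, 0, 0, 7, 7, 14, 28, 56], [11, 0, 0, 11, 11, 22, 44, 88],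
    [1, 5, 3, 1, 1, 2, 3, 3], [3, 15, 9, 3, 3, 6, 9, 9]]

theorem chkD : (D65.all fun x => decide (x.2.1.length = 8) &&
    ((List.range 8).all fun i => decide ((x.2.1.getD i 0) % (65 : ℤ) = ((x.1.getD i 0 : ℕ) : ℤ) % (65 : ℤ))) &&
    chain x.2.2.1 x.2.1 x.2.2.2 && T65.contains x.2.2.2) = true := by decide +kernel

/-- the final test in the first case -/
def finA (U : List ℕ) : Bool :=
  bif BA.all (fun cb => Nat.beq (dotN cb.2 U % 5) 0) then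
    (bif isZ U then true else !(invB 65 2 R8 (crt 40 26 65 yA U))) else true

/-- the final test in the second case -/
def finB (U : List ℕ) : Bool :=
  bif BB.all (fun cb => Nat.beq (dotN cb.2 U % 5) 0) then
    (bif isZ U then true else (bif invB 65 2 R8 (crt 40 26 65 yB U) then
      (D65.map fun x => x.1).contains (crt 40 26 65 yB U) else true)) else true

theorem chkA : (allAlc [2, 1, 2, 1] 5 fun a => bif (Nat.ble (dotN [1, 2, 2, 1] a) 5 && Nat.ble (dotN [1, 1, 2, 2] a) 5) then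
    finA [(2 * a.getD 1 0 + 3 * a.getD 3 0 + 2 * (a.getD 0 0 + a.getD 1 0 + 2 * a.getD 2 0 + 2 * a.getD 3 0)) % 5,
      a.getD 0 0, a.getD 1 0, a.getD 2 0, a.getD 3 0,
      (2 * (a.getD 0 0 + a.getD 1 0 + 2 * a.getD 2 0 + 2 * a.getD 3 0)) % 5, 0, 0] else true) = true := by
  decide +kernel

/-- the third free coordinate -/
def z7 (b : List ℕ) : ℕ := (3 * b.getD 0 0 + b.getD 1 0) % 5

/-- the second free coordinate -/
def z4 (a b : List ℕ) : ℕ := (3 * (a.getD 0 0 + 2 * a.getD 1 0 + 2 * b.getD 1 0 + 4 * z7 b)) % 5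

theorem chkB' : (allAlc [2, 1] 5 fun a => bif Nat.ble (dotN [1, 2] a) 5 then
    (allAlc [2, 1] 5 fun b => bif Nat.ble (dotN [1, 2] b) 5 then
      finB [(a.getD 1 0 + 2 * z4 a b + 3 * b.getD 1 0 + z7 b) % 5, (z4 a b + 4 * b.getD 1 0 + 3 * z7 b) % 5,
        a.getD 0 0, a.getD 1 0, z4 a b, b.getD 0 0, b.getD 1 0, z7 b] else true) else true) = true := by
  decide +kernel

/-- the first case is impossible -/
theorem caseA {v : Fin 8 → ZMod (13 * 5)} (hq : InvQ 2 v) (hv : (fun i => q₁ 13 5 (v i)) = vecOf 13 yA)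
    (h5 : (fun i => q₂ 13 5 (v i)) ≠ 0) : False := by
  obtain ⟨u, hu, ⟨v', e1, e2, e3, e4⟩, hmin⟩ := stageB (N₁ := 13) (N₂ := 5) (by norm_num) yA {1, 2, 3, 4} RZA
    ![0, 6, 6, 10, 6, 0, 0, 0] (by decide +kernel)
    (by decide +kernel) (by decide +kernel) (by decide +kernel) (by decide +kernel) (by decide +kernel) (by decide +kernel)
    (fun w => InvQ 2 w ∧ (fun i => q₂ 13 5 (w i)) ≠ 0) ((sInv_invQ 2).and (sInv_ne _)) hv ⟨hq, h5⟩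
  have c1 : 2 * ((0 : ℤ) * u 0 + 12 * u 1 + 6 * u 2 + 12 * u 3 + 6 * u 4 + 0 * u 5 + 0 * u 6 + 0 * u 7) ≤ (5 : ℕ) * 12 :=
    con (d := toF [0, 1, 0, 0, 0, 0, 0, 0]) (b := toF [0, 12, 6, 12, 6, 0, 0, 0]) (by decide +kernel) (by decide +kernel)
      (hmin _)
  have c2 : 2 * ((0 : ℤ) * u 0 + 6 * u 1 + 12 * u 2 + 12 * u 3 + 6 * u 4 + 0 * u 5 + 0 * u 6 + 0 * u 7) ≤ (5 : ℕ) * 12 :=
    con (d := toF [0, 0, 1, 0, 0, 0, 0, 0]) (b := toF [0, 6, 12, 12, 6, 0, 0, 0]) (by decide +kernel) (by decide +kernel)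
      (hmin _)
  have c3 : 2 * ((0 : ℤ) * u 0 + 6 * u 1 + 6 * u 2 + 12 * u 3 + 12 * u 4 + 0 * u 5 + 0 * u 6 + 0 * u 7) ≤ (5 : ℕ) * 12 :=
    con (d := toF [0, 0, 0, 0, 1, 0, 0, 0]) (b := toF [0, 6, 6, 12, 12, 0, 0, 0]) (by decide +kernel) (by decide +kernel)
      (hmin _)
  have m1 : dotN [2, 1, 2, 1] [u 1, u 2, u 3, u 4] ≤ 5 := by simp only [dotN]; omega
  have g1 : Nat.ble (dotN [1, 2, 2, 1] [u 1, u 2, u 3, u 4]) 5 = true := by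
    rw [Nat.ble_eq]; simp only [dotN]; omega
  have g2 : Nat.ble (dotN [1, 1, 2, 2] [u 1, u 2, u 3, u 4]) 5 = true := by
    rw [Nat.ble_eq]; simp only [dotN]; omega
  have f0 : u 0 < 5 := hu 0 (by decide)
  have f5 : u 5 < 5 := hu 5 (by decide)
  have f6 : u 6 < 5 := hu 6 (by decide)
  have f7 : u 7 < 5 := hu 7 (by decide)
  rw [vecOf_list u] at e2
  have hl := lin_crt (N₁ := 13) (N₂ := 5) (by norm_num) e3 e1 e2 chkBA
  have hl' := hl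
  simp only [BA, List.all_cons, List.all_nil, Bool.and_true, Bool.and_eq_true, Nat.beq_eq, dotN] at hl'
  obtain ⟨l1, l2, l3, l4⟩ := hl'
  have h5z : (5 : ZMod 5) = 0 := by decide
  replace l1 := zero_of_mod l1
  replace l2 := zero_of_mod l2
  replace l3 := zero_of_mod l3
  replace l4 := zero_of_mod l4
  push_cast at l1 l2 l3 l4
  have g6 : u 6 = 0 % 5 := eq_mod f6 (by push_cast; linear_combination 1 * l1 + 1 * l2 + 2 * l3 + 2 * l4 + ((-3) * (u 0 : ZMod 5) + (-1) * (u 1 : ZMod 5) + (-3) * (u 2 : ZMod 5) + (-1) * (u 3 : ZMod 5) + (-2) * (u 4 : ZMod 5) + (-1) * (u 5 : ZMod 5) + (-3) * (u 6 : ZMod 5) + (-3) * (u 7 : ZMod 5)) * h5z)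
  have g7 : u 7 = 0 % 5 := eq_mod f7 (by push_cast; linear_combination 3 * l2 + 2 * l3 + 1 * l4 + ((-2) * (u 0 : ZMod 5) + (-2) * (u 1 : ZMod 5) + (-3) * (u 2 : ZMod 5) + (-1) * (u 3 : ZMod 5) + (-2) * (u 4 : ZMod 5) + (-1) * (u 5 : ZMod 5) + (-4) * (u 6 : ZMod 5) + (-3) * (u 7 : ZMod 5)) * h5z)
  have g5 : u 5 = (2 * (u 1 + u 2 + 2 * u 3 + 2 * u 4)) % 5 := eq_mod f5 (by
    push_cast; linear_combination 1 * l1 + 1 * l2 + 3 * l3 + ((-3) * (u 0 : ZMod 5) + (-1) * (u 1 : ZMod 5) + (-3) * (u 2 : ZMod 5) + (-1) * (u 3 : ZMod 5) + (-3) * (u 4 : ZMod 5) + (-1) * (u 5 : ZMod 5) + (-4) * (u 6 : ZMod 5) + (-3) * (u 7 : ZMod 5)) * h5z)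
  have g0 : u 0 = (2 * u 2 + 3 * u 4 + 2 * (u 1 + u 2 + 2 * u 3 + 2 * u 4)) % 5 := eq_mod f0 (by
    push_cast; linear_combination 2 * l2 + 3 * l3 + 2 * l4 + ((-3) * (u 0 : ZMod 5) + (-2) * (u 1 : ZMod 5) + (-4) * (u 2 : ZMod 5) + (-2) * (u 3 : ZMod 5) + (-4) * (u 4 : ZMod 5) + (-1) * (u 5 : ZMod 5) + (-4) * (u 6 : ZMod 5) + (-4) * (u 7 : ZMod 5)) * h5z)
  have h1 := allAlc_spec [2, 1, 2, 1] 5 _ (by decide) chkA [u 1, u 2, u 3, u 4] rfl m1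
  rw [g1, g2, Bool.and_self, cond_true] at h1
  have hU : [(2 * u 2 + 3 * u 4 + 2 * (u 1 + u 2 + 2 * u 3 + 2 * u 4)) % 5, u 1, u 2, u 3, u 4,
      (2 * (u 1 + u 2 + 2 * u 3 + 2 * u 4)) % 5, 0, 0] = [u 0, u 1, u 2, u 3, u 4, u 5, u 6, u 7] := by
    rw [← g0, ← g5, g6, g7]
  have h2 : finA [u 0, u 1, u 2, u 3, u 4, u 5, u 6, u 7] = true := by
    rw [← hU]
    exact h1
  unfold finA at h2
  rw [hl, cond_true] at h2
  have h3 : invB 65 2 R8 (crt 40 26 65 yA [u 0, u 1, u 2, u 3, u 4, u 5, u 6, u 7]) = true := by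
    refine invB_of (N := 65) (by norm_num) tab8 len8 ?_
    have h4 := eq_crt (N₁ := 13) (N₂ := 5) (by norm_num) (e₁ := 40) (e₂ := 26) (by decide) (by decide) (by decide)
      (by decide) (Y := yA) (U := [u 0, u 1, u 2, u 3, u 4, u 5, u 6, u 7]) rfl e1 e2
    rw [h4] at e3
    exact e3
  cases hz : isZ [u 0, u 1, u 2, u 3, u 4, u 5, u 6, u 7] with
  | true =>
    refine e4 ?_
    rw [e2]
    funext i
    unfold vecOf
    have h4 := isZ_spec _ hz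
    have h5 : [u 0, u 1, u 2, u 3, u 4, u 5, u 6, u 7].getD (i : ℕ) 0 = 0 := by
      rw [List.getD_eq_getElem _ _ (by exact i.2)]
      exact h4 _ (List.getElem_mem _)
    rw [h5, Nat.cast_zero]
    rfl
  | false =>
    rw [hz, cond_false, h3] at h2
    exact absurd h2 (by decide)

/-- the second case -/
theorem caseB (P : (Fin 8 → ZMod (13 * 5)) → Prop) (hP : SInv P) {v : Fin 8 → ZMod (13 * 5)} (h0 : P v)
    (hq : InvQ 2 v) (hv : (fun i => q₁ 13 5 (v i)) = vecOf 13 yB)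
    (h5 : (fun i => q₂ 13 5 (v i)) ≠ 0) : ∃ s ∈ T65, P (vecZ (13 * 5) s) := by
  obtain ⟨u, hu, ⟨v', e1, e2, ⟨e3, e4⟩, e5⟩, hmin⟩ := stageB (N₁ := 13) (N₂ := 5) (by norm_num) yB {2, 3, 5, 6} RZB
    ![0, 0, 2, 2, 0, 2, 2, 0] (by decide +kernel)
    (by decide +kernel) (by decide +kernel) (by decide +kernel) (by decide +kernel) (by decide +kernel) (by decide +kernel)
    (fun w => (InvQ 2 w ∧ (fun i => q₂ 13 5 (w i)) ≠ 0) ∧ P w) (((sInv_invQ 2).and (sInv_ne _)).and hP) hv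
    ⟨⟨hq, h5⟩, h0⟩
  have c1 : 2 * ((0 : ℤ) * u 0 + 0 * u 1 + 4 * u 2 + 2 * u 3 + 0 * u 4 + 0 * u 5 + 0 * u 6 + 0 * u 7) ≤ (5 : ℕ) * 4 :=
    con (d := toF [0, 0, 1, 0, 0, 0, 0, 0]) (b := toF [0, 0, 4, 2, 0, 0, 0, 0]) (by decide +kernel) (by decide +kernel)
      (hmin _)
  have c2 : 2 * ((0 : ℤ) * u 0 + 0 * u 1 + 2 * u 2 + 4 * u 3 + 0 * u 4 + 0 * u 5 + 0 * u 6 + 0 * u 7) ≤ (5 : ℕ) * 4 :=
    con (d := toF [0, 0, 0, 1, 0, 0, 0, 0]) (b := toF [0, 0, 2, 4, 0, 0, 0, 0]) (by decide +kernel) (by decide +kernel)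
      (hmin _)
  have c3 : 2 * ((0 : ℤ) * u 0 + 0 * u 1 + 0 * u 2 + 0 * u 3 + 0 * u 4 + 4 * u 5 + 2 * u 6 + 0 * u 7) ≤ (5 : ℕ) * 4 :=
    con (d := toF [0, 0, 0, 0, 0, 1, 0, 0]) (b := toF [0, 0, 0, 0, 0, 4, 2, 0]) (by decide +kernel) (by decide +kernel)
      (hmin _)
  have c4 : 2 * ((0 : ℤ) * u 0 + 0 * u 1 + 0 * u 2 + 0 * u 3 + 0 * u 4 + 2 * u 5 + 4 * u 6 + 0 * u 7) ≤ (5 : ℕ) * 4 :=
    con (d := toF [0, 0, 0, 0, 0, 0, 1, 0]) (b := toF [0, 0, 0, 0, 0, 2, 4, 0]) (by decide +kernel) (by decide +kernel)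
      (hmin _)
  have m1 : dotN [2, 1] [u 2, u 3] ≤ 5 := by simp only [dotN]; omega
  have g1 : Nat.ble (dotN [1, 2] [u 2, u 3]) 5 = true := by
    rw [Nat.ble_eq]; simp only [dotN]; omega
  have m2 : dotN [2, 1] [u 5, u 6] ≤ 5 := by simp only [dotN]; omega
  have g2 : Nat.ble (dotN [1, 2] [u 5, u 6]) 5 = true := by
    rw [Nat.ble_eq]; simp only [dotN]; omega
  have f0 : u 0 < 5 := hu 0 (by decide)
  have f1 : u 1 < 5 := hu 1 (by decide)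
  have f4 : u 4 < 5 := hu 4 (by decide)
  have f7 : u 7 < 5 := hu 7 (by decide)
  rw [vecOf_list u] at e2
  have hl := lin_crt (N₁ := 13) (N₂ := 5) (by norm_num) e3 e1 e2 chkBB
  have hl' := hl
  simp only [BB, List.all_cons, List.all_nil, Bool.and_true, Bool.and_eq_true, Nat.beq_eq, dotN] at hl'
  obtain ⟨l1, l2, l3, l4⟩ := hl'
  have h5z : (5 : ZMod 5) = 0 := by decide
  replace l1 := zero_of_mod l1
  replace l2 := zero_of_mod l2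
  replace l3 := zero_of_mod l3
  replace l4 := zero_of_mod l4
  push_cast at l1 l2 l3 l4
  have k7 : u 7 = (3 * u 5 + u 6) % 5 := eq_mod f7 (by push_cast; linear_combination 2 * l2 + 1 * l3 + 4 * l4 + ((-4) * (u 0 : ZMod 5) + (-2) * (u 1 : ZMod 5) + (-4) * (u 2 : ZMod 5) + (-5) * (u 3 : ZMod 5) + (-4) * (u 4 : ZMod 5) + (-3) * (u 5 : ZMod 5) + (-4) * (u 6 : ZMod 5) + (-3) * (u 7 : ZMod 5)) * h5z)
  have k4 : u 4 = (3 * (u 2 + 2 * u 3 + 2 * u 6 + 4 * u 7)) % 5 := eq_mod f4 (by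
    push_cast; linear_combination 2 * l1 + 3 * l2 + 2 * l4 + ((-3) * (u 0 : ZMod 5) + (-1) * (u 1 : ZMod 5) + (-3) * (u 2 : ZMod 5) + (-6) * (u 3 : ZMod 5) + (-3) * (u 4 : ZMod 5) + (-4) * (u 5 : ZMod 5) + (-5) * (u 6 : ZMod 5) + (-5) * (u 7 : ZMod 5)) * h5z)
  have k1 : u 1 = (u 4 + 4 * u 6 + 3 * u 7) % 5 := eq_mod f1 (by push_cast; linear_combination 3 * l1 + 1 * l4 + ((-2) * (u 0 : ZMod 5) + (-2) * (u 2 : ZMod 5) + (-2) * (u 3 : ZMod 5) + (-2) * (u 4 : ZMod 5) + (-2) * (u 5 : ZMod 5) + (-4) * (u 6 : ZMod 5) + (-1) * (u 7 : ZMod 5)) * h5z)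
  have k0 : u 0 = (u 3 + 2 * u 4 + 3 * u 6 + u 7) % 5 := eq_mod f0 (by push_cast; linear_combination 2 * l1 + 2 * l2 + 3 * l3 + 1 * l4 + ((-3) * (u 0 : ZMod 5) + (-3) * (u 1 : ZMod 5) + (-4) * (u 2 : ZMod 5) + (-4) * (u 3 : ZMod 5) + (-5) * (u 4 : ZMod 5) + (-3) * (u 5 : ZMod 5) + (-4) * (u 6 : ZMod 5) + (-3) * (u 7 : ZMod 5)) * h5z)
  have h1 := allAlc_spec [2, 1] 5 _ (by decide) chkB' [u 2, u 3] rfl m1
  rw [g1, cond_true] at h1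
  have h2 := allAlc_spec [2, 1] 5 _ (by decide) h1 [u 5, u 6] rfl m2
  rw [g2, cond_true] at h2
  have hz7 : z7 [u 5, u 6] = u 7 := k7.symm
  have hz4 : z4 [u 2, u 3] [u 5, u 6] = u 4 := by
    rw [k4, ← hz7]
    rfl
  rw [hz7, hz4] at h2
  have h3 : finB [u 0, u 1, u 2, u 3, u 4, u 5, u 6, u 7] = true := by
    have hU : [(u 3 + 2 * u 4 + 3 * u 6 + u 7) % 5, (u 4 + 4 * u 6 + 3 * u 7) % 5, u 2, u 3, u 4, u 5, u 6, u 7] =
        [u 0, u 1, u 2, u 3, u 4, u 5, u 6, u 7] := by rw [← k0, ← k1]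
    rw [← hU]
    exact h2
  unfold finB at h3
  rw [hl, cond_true] at h3
  have h4 := eq_crt (N₁ := 13) (N₂ := 5) (by norm_num) (e₁ := 40) (e₂ := 26) (by decide) (by decide) (by decide)
    (by decide) (Y := yB) (U := [u 0, u 1, u 2, u 3, u 4, u 5, u 6, u 7]) rfl e1 e2
  have h5 : invB 65 2 R8 (crt 40 26 65 yB [u 0, u 1, u 2, u 3, u 4, u 5, u 6, u 7]) = true := by
    refine invB_of (N := 65) (by norm_num) tab8 len8 ?_
    rw [h4] at e3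
    exact e3
  cases hz : isZ [u 0, u 1, u 2, u 3, u 4, u 5, u 6, u 7] with
  | true =>
    exfalso
    refine e4 ?_
    rw [e2]
    funext i
    unfold vecOf
    have h6 := isZ_spec _ hz
    have h7 : [u 0, u 1, u 2, u 3, u 4, u 5, u 6, u 7].getD (i : ℕ) 0 = 0 := by
      rw [List.getD_eq_getElem _ _ (by exact i.2)]
      exact h6 _ (List.getElem_mem _)
    rw [h7, Nat.cast_zero]
    rfl
  | false =>
    rw [hz, cond_false, h5, cond_true, List.contains_iff_mem, List.mem_map] at h3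
    obtain ⟨x, hx, hx1⟩ := h3
    have h6 := List.all_eq_true.1 chkD x hx
    rw [Bool.and_eq_true, Bool.and_eq_true, Bool.and_eq_true, decide_eq_true_iff, List.contains_iff_mem] at h6
    obtain ⟨⟨⟨h7, h8⟩, h9⟩, h10⟩ := h6
    refine ⟨x.2.2.2, h10, ?_⟩
    refine move hP x.2.2.1 x.1 x.2.1 x.2.2.2 h7 h8 h9 ?_
    rw [hx1]
    rw [h4] at e5
    exact e5

end O65

/-- **The vectors modulo `13 * 5`.** -/
theorem class65 (P : (Fin 8 → ZMod (13 * 5)) → Prop) (hP : SInv P) {v : Fin 8 → ZMod (13 * 5)} (h0 : P v)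
    (hq : InvQ 2 v) (h13 : (fun i => q₁ 13 5 (v i)) ≠ 0) (h5 : (fun i => q₂ 13 5 (v i)) ≠ 0) :
    ∃ s ∈ O65.T65, P (vecZ (13 * 5) s) := by
  obtain ⟨Y, v', hYl, hYθ, ⟨⟨⟨e1, e2⟩, e3⟩, e4⟩, e5⟩ := stageA (N₁ := 13) (N₂ := 5) (by norm_num)
    (fun w => ((InvQ 2 w ∧ (fun i => q₁ 13 5 (w i)) ≠ 0) ∧ (fun i => q₂ 13 5 (w i)) ≠ 0) ∧ P w)
    ((((sInv_invQ 2).and (sInv_ne _)).and (sInv_ne _)).and hP) ⟨⟨⟨hq, h13⟩, h5⟩, h0⟩
  have h2 := allAlc_spec th8 13 _ (by decide) O65.check13 Y hYl hYθ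
  have h4 : invB 13 2 R8 Y = true := by
    refine invB_of (by norm_num) tab8 len8 ?_
    have h6 : ms chevE8 8 (fun i => q₁ 13 5 (v' i)) = (ms chevE8 8 (fun i => q₁ 13 5 (v' i))).map
        (fun a => ((2 : ℕ) : ZMod 13) * a) := inv_map (q₁ 13 5) e1
    rw [e5] at h6
    exact h6
  rw [h4, cond_true] at h2
  simp only [Bool.or_eq_true, beq_iff_eq] at h2
  rcases h2 with (h2 | h2) | h2
  · subst h2
    exact (O65.caseA e1 e5 e3).elim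
  · subst h2
    exact O65.caseB P hP e4 e1 e5 e3
  · refine absurd ?_ e2
    rw [e5]
    subst h2
    funext i
    fin_cases i <;> rfl

end Cfsg.Agent.H484.E8T
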