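import Mathlib
import Cfsg.Agent.H484.E8T.Ord65

/-!
# Numbers of roots with given values: orders 65 and 9 (helper484, for S5915)

* `cnt65` : the six tables of the elements of order 65 of `E₈(2)`;
* `class9`, `cnt9` : the nine classes of vectors modulo 9 invariant under the multiplication by 2.
-/

set_option autoImplicit false
set_option maxRecDepth 100000
set_option maxHeartbeats 1000000

namespace Cfsg.Agent.H484.E8T

open Cfsg.Agent.ChevalleyStructure.CoxeterGeom Cfsg.Agent.Tits.Roots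
  Cfsg.Agent.Nodes.RGDChev
open Cfsg.Lie Cfsg.Agent.ChevalleyStructure Cfsg.Agent.ChevalleyStructure.Elts
  Cfsg.Agent.ChevalleyStructure.RootVec Cfsg.Agent.ChevalleyStructure.RootVecTab
  Cfsg.Agent.ChevalleyStructure.NPerm Cfsg.Agent.ChevalleyStructure.CoxeterGeomTypes
open Cfsg.Agent.H944.RootVals Cfsg.Agent.H944.Kac Cfsg.Agent.H944.Tab
open Cfsg.Agent.H943.E8Tab

/-- the number of roots with the value `j` on the vector `Y` modulo `N` -/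
def cntL (N j : ℕ) (Y : List ℕ) : ℕ :=
  sumH (fun t => (bif Nat.beq (t % N) j then 1 else 0) + (bif Nat.beq ((N - t % N) % N) j then 1 else 0)) R8 Y

theorem count_vecOf {N : ℕ} (hN : 0 < N) (Y : List ℕ) {j : ℕ} (hj : j < N) :
    (ms chevE8 8 (vecOf N Y)).count (j : ZMod N) = cntL N j Y := by
  rw [count_eq_sum, sum_vecOf, cntL, sumH_eq]
  congr 1
  refine List.map_congr_left fun r _ => ?_
  have h1 : ∀ a : ℕ, (bif Nat.beq a j then 1 else 0) = if a = j then 1 else 0 := by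
    intro a
    by_cases h : a = j
    · have h' : Nat.beq a j = true := by rw [Nat.beq_eq]; exact h
      rw [if_pos h, h', cond_true]
    · rw [if_neg h]
      have : Nat.beq a j = false := by
        rw [← Bool.not_eq_true, Nat.beq_eq]; exact h
      rw [this, cond_false]
  rw [h1, h1]
  simp only [mod_iff _ hj, neg_mod_iff hN _ hj]

/-- all counts -/
def cntT (N : ℕ) (Y : List ℕ) : List ℕ := (List.range N).map fun j => cntL N j Y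

theorem cntT_getD {N : ℕ} (Y : List ℕ) {j : ℕ} (hj : j < N) : (cntT N Y).getD j 0 = cntL N j Y := by
  unfold cntT
  rw [List.getD_eq_getElem _ _ (by rw [List.length_map, List.length_range]; exact hj), List.getElem_map,
    List.getElem_range]

/-- the vector of a list of natural numbers given as integers -/
theorem vecZ_map (N : ℕ) (Y : List ℕ) : vecZ N (Y.map fun a : ℕ => (a : ℤ)) = vecOf N Y := by
  funext i
  unfold vecZ vecOf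
  have h1 : (Y.map fun a : ℕ => (a : ℤ)).getD (i : ℕ) 0 = ((Y.getD (i : ℕ) 0 : ℕ) : ℤ) := by
    rw [← Nat.cast_zero, List.getD_map]
  rw [h1, Int.cast_natCast]

/-! ### order 65 -/

/-- representatives modulo 65 -/
def Y65 : List (List ℕ) :=
  [[1, 0, 0, 1, 1, 2, 4, 8], [3, 0, 0, 3, 3, 6, 12, 24], [7, 0, 0, 7, 7, 14, 28, 56], [11, 0, 0, 11, 11, 22, 44, 23],
    [1, 5, 3, 1, 1, 2, 3, 3], [3, 15, 9, 3, 3, 6, 9, 9]]

/-- tables of the counts modulo 65 -/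
def C65 : List (List ℕ) :=
  [
    [4, 7, 7, 4, 7, 3, 4, 3, 7, 3, 3, 2, 4, 2, 3, 3, 7, 4, 3, 2, 3, 2, 2, 2, 4, 3, 2, 2, 3, 3, 3, 4, 7, 7, 4, 3,
      3, 3, 2, 2, 3, 4, 2, 2, 2, 3, 2, 3, 4, 7, 3, 3, 2, 4, 2, 3, 3, 7, 3, 4, 3, 7, 4, 7, 7],
    [4, 2, 2, 7, 2, 3, 7, 4, 2, 4, 3, 3, 7, 2, 4, 3, 2, 7, 4, 3, 3, 3, 3, 3, 7, 3, 2, 3, 4, 4, 3, 7, 2, 2, 7, 3,
      4, 4, 3, 2, 3, 7, 3, 3, 3, 3, 3, 4, 7, 2, 3, 4, 2, 7, 3, 3, 4, 2, 4, 7, 3, 2, 7, 2, 2],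
    [4, 3, 3, 2, 3, 3, 2, 7, 3, 7, 3, 4, 2, 2, 7, 3, 3, 2, 7, 4, 3, 4, 4, 4, 2, 3, 2, 4, 7, 7, 3, 2, 3, 3, 2, 3,
      7, 7, 4, 2, 3, 2, 4, 4, 4, 3, 4, 7, 2, 3, 3, 7, 2, 2, 4, 3, 7, 3, 7, 2, 3, 3, 2, 3, 3],
    [4, 4, 4, 3, 4, 3, 3, 2, 4, 2, 3, 7, 3, 2, 2, 3, 4, 3, 2, 7, 3, 7, 7, 7, 3, 3, 2, 7, 2, 2, 3, 3, 4, 4, 3, 3,
      2, 2, 7, 2, 3, 3, 7, 7, 7, 3, 7, 2, 3, 4, 3, 2, 2, 3, 7, 3, 2, 4, 2, 3, 3, 4, 3, 4, 4],
    [0, 3, 3, 4, 3, 5, 4, 3, 3, 3, 5, 4, 4, 3, 3, 5, 3, 4, 3, 4, 5, 4, 4, 4, 4, 5, 3, 4, 3, 3, 5, 4, 3, 3, 4, 5,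
      3, 3, 4, 3, 5, 4, 4, 4, 4, 5, 4, 3, 4, 3, 5, 3, 3, 4, 4, 5, 3, 3, 3, 4, 5, 3, 4, 3, 3],
    [0, 4, 4, 3, 4, 5, 3, 4, 4, 4, 5, 3, 3, 3, 4, 5, 4, 3, 4, 3, 5, 3, 3, 3, 3, 5, 3, 3, 4, 4, 5, 3, 4, 4, 3, 5,
      4, 4, 3, 3, 5, 3, 3, 3, 3, 5, 3, 4, 3, 4, 5, 4, 3, 3, 3, 5, 4, 4, 4, 3, 5, 4, 3, 4, 4]]

theorem chkC65 : Y65.map (cntT 65) = C65 := by decide +kernel

theorem mem_Y65 : ∀ s ∈ O65.T65, ∃ Y ∈ Y65, (List.range 8).all (fun i =>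
    decide (s.getD i 0 % (65 : ℤ) = ((Y.getD i 0 : ℕ) : ℤ) % (65 : ℤ))) = true := by decide +kernel

theorem ne_of_mul {v : Fin 8 → ZMod (13 * 5)} (h5 : ∃ i, 5 * v i ≠ 0) : (fun i => q₁ 13 5 (v i)) ≠ 0 := by
  obtain ⟨i, hi⟩ := h5
  intro h0
  refine hi ?_
  have h1 : ∀ a : ZMod (13 * 5), q₁ 13 5 a = 0 → 5 * a = 0 := by decide +kernel
  exact h1 _ (congrFun h0 i)

theorem ne_of_mul' {v : Fin 8 → ZMod (13 * 5)} (h13 : ∃ i, 13 * v i ≠ 0) : (fun i => q₂ 13 5 (v i)) ≠ 0 := by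
  obtain ⟨i, hi⟩ := h13
  intro h0
  refine hi ?_
  have h1 : ∀ a : ZMod (13 * 5), q₂ 13 5 a = 0 → 13 * a = 0 := by decide +kernel
  exact h1 _ (congrFun h0 i)

/-- **the vectors of order 65**, for any property -/
theorem class65' (P : (Fin 8 → ZMod 65) → Prop) (hP : ∀ v j, P v → P (srefl chevE8 8 j v)) {v : Fin 8 → ZMod 65}
    (hv : P v) (h2 : (ms chevE8 8 v).map (fun a => 2 * a) = ms chevE8 8 v) (h5 : ∃ i, 5 * v i ≠ 0)
    (h13 : ∃ i, 13 * v i ≠ 0) : ∃ Y ∈ Y65, P (vecOf 65 Y) := by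
  obtain ⟨s, hs, h⟩ := class65 (v := v) P hP hv h2.symm (ne_of_mul h5) (ne_of_mul' h13)
  obtain ⟨Y, hY, hsY⟩ := mem_Y65 s hs
  refine ⟨Y, hY, ?_⟩
  have h1 : vecZ (13 * 5) s = vecOf (13 * 5) Y := by
    funext i
    unfold vecZ vecOf
    rw [List.all_eq_true] at hsY
    have h3 := hsY i (by rw [List.mem_range]; exact i.2)
    rw [decide_eq_true_iff] at h3
    rw [(ZMod.intCast_eq_intCast_iff' _ _ 65).2 h3, Int.cast_natCast]
  rw [h1] at h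
  exact h

/-- **the numbers of roots of given value, order 65** -/
theorem cnt65 {v : Fin 8 → ZMod 65} (h2 : (ms chevE8 8 v).map (fun a => 2 * a) = ms chevE8 8 v)
    (h5 : ∃ i, 5 * v i ≠ 0) (h13 : ∃ i, 13 * v i ≠ 0) :
    ∃ T ∈ C65, ∀ j : ℕ, j < 65 → (ms chevE8 8 v).count (j : ZMod 65) = T.getD j 0 := by
  obtain ⟨Y, hY, h⟩ := class65' (fun w => ms chevE8 8 w = ms chevE8 8 v) (fun w j h => by rw [ms_srefl e8T, h]) rfl h2
    h5 h13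
  refine ⟨cntT 65 Y, ?_, fun j hj => ?_⟩
  · rw [← chkC65]
    exact List.mem_map_of_mem hY
  · rw [← h, count_vecOf (by norm_num) Y hj, cntT_getD Y hj]

/-! ### order 9 -/

/-- representatives modulo 9 -/
def Y9 : List (List ℕ) :=
  [[0, 0, 0, 0, 0, 0, 0, 0], [0, 0, 0, 0, 0, 0, 0, 3], [0, 0, 0, 0, 0, 0, 3, 0], [0, 0, 0, 1, 0, 0, 1, 0],
    [0, 3, 0, 0, 0, 0, 0, 0], [1, 0, 0, 0, 0, 0, 1, 1], [1, 0, 0, 0, 0, 1, 0, 1], [1, 1, 0, 0, 0, 0, 1, 0],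
    [3, 0, 0, 0, 0, 0, 0, 0]]

/-- tables of the counts modulo 9 -/
def C9 : List (List ℕ) :=
  [
    [240, 0, 0, 0, 0, 0, 0, 0, 0],
    [126, 0, 0, 57, 0, 0, 57, 0, 0],
    [78, 0, 0, 81, 0, 0, 81, 0, 0],
    [20, 27, 27, 29, 27, 27, 29, 27, 27],
    [72, 0, 0, 84, 0, 0, 84, 0, 0],
    [40, 27, 27, 19, 27, 27, 19, 27, 27],
    [26, 27, 27, 26, 27, 27, 26, 27, 27],
    [22, 27, 27, 28, 27, 27, 28, 27, 27],
    [84, 0, 0, 78, 0, 0, 78, 0, 0]]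

theorem chkC9 : Y9.map (cntT 9) = C9 := by decide +kernel

theorem check9 : allAlc th8 9 (fun y => bif invB 9 2 R8 y then Y9.contains y else true) = true := by decide +kernel

/-- **the vectors modulo 9**, for any property -/
theorem class9 (P : (Fin 8 → ZMod 9) → Prop) (hP : ∀ v j, P v → P (srefl chevE8 8 j v)) {v : Fin 8 → ZMod 9}
    (hv : P v) (h2 : (ms chevE8 8 v).map (fun a => 2 * a) = ms chevE8 8 v) : ∃ Y ∈ Y9, P (vecOf 9 Y) := by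
  obtain ⟨Y, hYl, hYθ, h3, h4⟩ := alcove8 (N := 9) (by norm_num) (fun w => P w ∧ InvQ 2 w)
    (fun w j h => ⟨hP w j h.1, sInv_invQ 2 w j h.2⟩) ⟨hv, h2.symm⟩
  have h5 := allAlc_spec th8 9 _ (by decide) check9 Y hYl hYθ
  have h6 : invB 9 2 R8 Y = true := invB_of (by norm_num) tab8 len8 h4
  rw [h6, cond_true, List.contains_iff_mem] at h5
  exact ⟨Y, h5, h3⟩

/-- **the numbers of roots of given value, modulo 9** -/
theorem cnt9 {v : Fin 8 → ZMod 9} (h2 : (ms chevE8 8 v).map (fun a => 2 * a) = ms chevE8 8 v) :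
    ∃ T ∈ C9, ∀ j : ℕ, j < 9 → (ms chevE8 8 v).count (j : ZMod 9) = T.getD j 0 := by
  obtain ⟨Y, hY, h⟩ := class9 (fun w => ms chevE8 8 w = ms chevE8 8 v) (fun w j h => by rw [ms_srefl e8T, h]) rfl h2
  refine ⟨cntT 9 Y, ?_, fun j hj => ?_⟩
  · rw [← chkC9]
    exact List.mem_map_of_mem hY
  · rw [← h, count_vecOf (by norm_num) Y hj, cntT_getD Y hj]

/-- reduction modulo 9 of a vector modulo 63 -/
theorem map_inv9 {v : Fin 8 → ZMod 63} (h2 : (ms chevE8 8 v).map (fun a => 2 * a) = ms chevE8 8 v) :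
    (ms chevE8 8 (fun i => ZMod.castHom (show 9 ∣ 63 by norm_num) (ZMod 9) (v i))).map (fun a => 2 * a) =
      ms chevE8 8 (fun i => ZMod.castHom (show 9 ∣ 63 by norm_num) (ZMod 9) (v i)) := by
  rw [ms_map]
  conv_rhs => rw [← h2]
  rw [Multiset.map_map, Multiset.map_map]
  refine Multiset.map_congr rfl fun a _ => ?_
  simp only [Function.comp_apply, map_mul, map_ofNat]

end Cfsg.Agent.H484.E8T
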